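import Cfsg.Prelude.Def_CaseTheorems
import Cfsg.Agent.TT.TildeCover
import Cfsg.Agent.S2035

/-! The double cover `2.M₁₂` has an element whose square is the central involution. -/

set_option autoImplicit false

namespace Cfsg.Agent.EvM

open Cfsg Subgroup Agent.Comp KSG.Pc Spor

noncomputable abbrev X := gen CovM12.ns CovM12.X_ss0

theorem cover : ∃ ξ : X →* gen ModelM12.ns ModelM12.G_ss0, Function.Surjective ξ ∧
    ξ.ker ≤ center _ ∧ (gen CovM12.ns [[24]]).subgroupOf X ≤ ξ.ker ⊓ commutator X := by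
  have := exists_cover CovM12.ctx ModelM12.ctx (ps := CovM12.ps) CovM12.chk
    (((CovM12.X_ver0.nested CovM12.X_l5 (by simp [CovM12.X_C0, CovM12.X_C1, CovM12.X_C2,
      CovM12.X_C3, CovM12.X_C4, CovM12.X_C5])).trans CovM12.X_eq.ge :))
    (CovM12.X_eq ▸ CovM12.hb :) (CovM12.X_eq ▸ CovM12.hb' :)
  have e1 : KSG.Pc.mapR Prod.fst CovM12.ps = CovM12.X_ss0 := rfl
  have e2 : KSG.Pc.mapR Prod.snd CovM12.ps = ModelM12.G_ss0 := rfl
  rwa [e1, e2] at this

/-- the element of a word in the two generators -/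
noncomputable def xw (v : List ℕ) : X := ⟨wp CovM12.ns (subW CovM12.X_ss0 v), subW_mem _ _ _⟩

noncomputable def aw : List ℕ := [0, 2, 0, 2, 0, 3, 0, 2, 0, 2, 0, 3, 0, 2, 0, 2, 0, 3]

theorem sq_aw : ((xw aw * xw aw : X) : Equiv.Perm ℕ) = wp CovM12.ns [24] := by
  change wp _ _ * wp _ _ = _
  rw [← wp_append, ← appendR_eq]
  exact wp_eq_of_eqW CovM12.ctx (by decide +kernel)

theorem model : ∃ ξ : X →* gen ModelM12.ns ModelM12.G_ss0, TT.DCov ξ (xw aw * xw aw) := by
  obtain ⟨ξ, h1, h2, h3⟩ := cover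
  have h4 : xw aw * xw aw ∈ ξ.ker ⊓ commutator X :=
    h3 (mem_subgroupOf.2 (sq_aw ▸ wp_mem_gen _ List.mem_cons_self))
  have h5 : xw aw * xw aw ≠ 1 := fun c => by
    have := wp_apply_of_mapsW CovM12.ctx.ok (u := [24]) (p := 24) (q := 25) (by norm_num)
      (by decide +kernel)
    rw [← sq_aw, c] at this
    simp at this
  have h6 : Nat.card ξ.ker = 2 := by
    have := ξ.ker.card_mul_index
    rw [index_ker, MonoidHom.range_eq_top.2 h1, card_top] at this
    rw [ModelM12.G_card, CovM12.X_card] at this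
    omega
  obtain ⟨y, -, h7⟩ := (Nat.card_eq_two_iff' (1 : ξ.ker)).1 h6
  have h8 : ∀ a, ξ a = 1 ↔ a = 1 ∨ a = xw aw * xw aw := fun a => ⟨fun c => or_iff_not_imp_left.2
    fun d => congrArg Subtype.val ((h7 ⟨a, c⟩ fun c => d (congrArg Subtype.val c)).trans
      (h7 ⟨_, h4.1⟩ fun c => h5 (congrArg Subtype.val c)).symm), by
    rintro (rfl | rfl)
    exacts [map_one ξ, h4.1]⟩
  refine ⟨ξ, Group.isPerfect_def.2 ?_, h1, h2 h4.1, h5, ?_, h8⟩
  · have : IsSimpleGroup Spor.M12 := isM12_M12.1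
    have : IsSimpleGroup (gen ModelM12.ns ModelM12.G_ss0) := ModelM12.equiv.symm.isSimpleGroup
    have c : ((commutator X).map ξ).comap ξ = ⊤ := by
      rw [map_commutator_eq, MonoidHom.range_eq_top.2 h1, ← commutator_def]
      exact (congrArg (comap ξ) (commutator_eq_top_of_simple (K := gen ModelM12.ns ModelM12.G_ss0)
        (by rw [ModelM12.G_card]; norm_num))).trans (comap_top ξ)
    rwa [comap_map_eq, sup_eq_left.2 fun a ha => by
      rcases (h8 a).1 ha with rfl | rfl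
      exacts [one_mem _, h4.2]] at c
  · refine ((h8 _).1 (by rw [map_mul, (h8 _).2 (Or.inr rfl), one_mul])).resolve_right fun c => h5 ?_
    simpa using c

theorem card_center {A : Type*} [Group A] [Finite A] (hq : IsQuasisimple A)
    (he : Even (Nat.card (center A))) (hi : Spor.IsoM12 (A ⧸ center A)) :
    Nat.card (center A) = 2 := by
  obtain ⟨ε⟩ := hi
  obtain ⟨A₀, _, _, ⟨b⟩⟩ := FGS.exists_finite_copy.{0} A
  let σ : A₀ →* Spor.M12 := (ε.toMonoidHom.comp (QuotientGroup.mk' _)).comp b.toMonoidHom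
  have hk : ∀ x, x ∈ σ.ker ↔ b x ∈ center A := fun x => by
    rw [MonoidHom.mem_ker]; simp [σ]
  have hp := hq.1
  have hp0 : Group.IsPerfect A₀ := Group.IsPerfect.ofSurjective (f := b.symm.toMonoidHom)
    b.symm.surjective
  obtain ⟨π, hπ⟩ := S2035.result.2 A₀ σ ⟨(ε.surjective.comp (QuotientGroup.mk'_surjective _)).comp
    b.surjective, fun x hx => mem_center_iff.2 fun y => b.injective (by
      simpa using mem_center_iff.1 ((hk x).1 hx) (b y)), by simp⟩
  have h1 : Nat.card σ.ker ∣ 2 := by simpa using card_dvd_of_surjective π hπ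
  have h2 : Nat.card σ.ker = Nat.card (center A) :=
    Nat.card_congr (b.toEquiv.subtypeEquiv hk)
  rw [h2] at h1
  exact Nat.dvd_antisymm h1 he.two_dvd

/-- A double cover of `M₁₂` is the model. -/
theorem exists_equiv {A : Type*} [Group A] [Finite A] (hq : IsQuasisimple A)
    (he : Even (Nat.card (center A))) (hi : Spor.IsoM12 (A ⧸ center A)) :
    ∃ ψ : X ≃* A, ψ (xw aw * xw aw) ≠ 1 ∧ ψ (xw aw * xw aw) ∈ center A := by
  have h2 := card_center hq he hi
  obtain ⟨ε⟩ := hi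
  obtain ⟨ξ, D⟩ := model
  have : Finite X := finite_gen CovM12.ctx.ok _
  obtain ⟨t, t1, h7⟩ := (Nat.card_eq_two_iff' (1 : center A)).1 h2
  have t1' : (t : A) ≠ 1 := fun c => t1 (Subtype.ext c)
  have h3 : ∀ a ∈ center A, a = 1 ∨ a = t := fun a ha => or_iff_not_imp_left.2 fun d =>
    congrArg Subtype.val (h7 ⟨a, ha⟩ fun c => d (congrArg Subtype.val c))
  have tt : (t : A) * t = 1 :=
    (h3 _ (mul_mem t.2 t.2)).resolve_right fun c => t1' (by simpa using c)
  obtain ⟨ψ, hψ⟩ := TT.DCov.exists_equiv (MulEquiv.refl _) (e := 1)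
    (MultM12.geq ▸ MultM12.bounds (2, 1) (by simp)) (n := 1) le_rfl (σ := fun _ => ξ) (fun _ => D)
    (fun i j c => absurd (Subsingleton.elim i j) c) (w := (t : A))
    (π := (ε.trans ModelM12.equiv).toMonoidHom.comp (QuotientGroup.mk' _))
    ⟨hq.1, (ε.trans ModelM12.equiv).surjective.comp (QuotientGroup.mk'_surjective _),
      t.2, t1', tt, fun a => by
        simpa using ⟨h3 a, by rintro (rfl | rfl); exacts [one_mem _, t.2]⟩⟩
  exact ⟨ψ, hψ ▸ t1', hψ ▸ t.2⟩

theorem exists_sq {A : Type*} [Group A] [Finite A] (hq : IsQuasisimple A)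
    (he : Even (Nat.card (center A))) (hi : Spor.IsoM12 (A ⧸ center A)) :
    Nat.card (center A) = 2 ∧ ∃ a : A, a * a ≠ 1 ∧ a * a ∈ center A := by
  obtain ⟨ψ, h1, h2⟩ := exists_equiv hq he hi
  exact ⟨card_center hq he hi, ψ (xw aw), map_mul ψ _ _ ▸ h1, map_mul ψ _ _ ▸ h2⟩

end Cfsg.Agent.EvM
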