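import Cfsg.Prelude.Def_CaseTheorems
import Cfsg.Agent.TT.TildeCover
import Cfsg.Agent.S2040

/-! The double cover `2.J₂` has an element whose square is the central involution. -/

set_option autoImplicit false

namespace Cfsg.Agent.EvM

open Cfsg Subgroup Agent.Comp KSG.Pc Spor

/-- A central extension by an element of the commutator subgroup, of twice the order. -/
theorem dcov_of {X Y : Type*} [Group X] [Group Y] [Finite X] {ξ : X →* Y}
    (h1 : Function.Surjective ξ) (h2 : ξ.ker ≤ center X) {T : X} (h4 : T ∈ ξ.ker ⊓ commutator X)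
    (h5 : T ≠ 1) (h6 : Nat.card ξ.ker = 2) (hY : commutator Y = ⊤) : TT.DCov ξ T := by
  obtain ⟨y, -, h7⟩ := (Nat.card_eq_two_iff' (1 : ξ.ker)).1 h6
  have h8 : ∀ a, ξ a = 1 ↔ a = 1 ∨ a = T := fun a => ⟨fun c => or_iff_not_imp_left.2
    fun d => congrArg Subtype.val ((h7 ⟨a, c⟩ fun c => d (congrArg Subtype.val c)).trans
      (h7 ⟨_, h4.1⟩ fun c => h5 (congrArg Subtype.val c)).symm), by
    rintro (rfl | rfl)
    exacts [map_one ξ, h4.1]⟩
  refine ⟨Group.isPerfect_def.2 ?_, h1, h2 h4.1, h5, ?_, h8⟩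
  · have c : ((commutator X).map ξ).comap ξ = ⊤ := by
      rw [map_commutator_eq, MonoidHom.range_eq_top.2 h1, ← commutator_def, hY]
      exact comap_top ξ
    rwa [comap_map_eq, sup_eq_left.2 fun a ha => by
      rcases (h8 a).1 ha with rfl | rfl
      exacts [one_mem _, h4.2]] at c
  · refine ((h8 _).1 (by rw [map_mul, (h8 _).2 (Or.inr rfl), one_mul])).resolve_right fun c => h5 ?_
    simpa using c

/-- The centre of a quasisimple group is a quotient of the multiplier. -/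
theorem card_center_dvd {A : Type*} [Group A] [Finite A] (hq : IsQuasisimple A) {Y : Type}
    [Group Y] {n : ℕ} (hY : HasCyclicSchurMultiplier Y n) (ε : (A ⧸ center A) ≃* Y) :
    Nat.card (center A) ∣ n := by
  obtain ⟨A₀, _, _, ⟨b⟩⟩ := FGS.exists_finite_copy.{0} A
  let σ : A₀ →* Y := (ε.toMonoidHom.comp (QuotientGroup.mk' _)).comp b.toMonoidHom
  have hk : ∀ x, x ∈ σ.ker ↔ b x ∈ center A := fun x => by
    rw [MonoidHom.mem_ker]; simp [σ]
  have hp := hq.1
  have hp0 : Group.IsPerfect A₀ := Group.IsPerfect.ofSurjective (f := b.symm.toMonoidHom)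
    b.symm.surjective
  obtain ⟨π, hπ⟩ := hY.2 A₀ σ ⟨(ε.surjective.comp (QuotientGroup.mk'_surjective _)).comp
    b.surjective, fun x hx => mem_center_iff.2 fun y => b.injective (by
      simpa using mem_center_iff.1 ((hk x).1 hx) (b y)), by simp⟩
  have h1 : Nat.card σ.ker ∣ n := by
    have := card_dvd_of_surjective π hπ
    rwa [Nat.card_congr (Multiplicative.toAdd (α := ZMod n)), Nat.card_zmod] at this
  have h2 : Nat.card σ.ker = Nat.card (center A) :=
    Nat.card_congr (b.toEquiv.subtypeEquiv hk)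
  rwa [h2] at h1

/-- A quasisimple group with centre of order two is a double cover. -/
theorem dcov_center {A : Type*} [Group A] [Finite A] (hq : IsQuasisimple A)
    (h2 : Nat.card (center A) = 2) {Y : Type*} [Group Y] (ε : (A ⧸ center A) ≃* Y) :
    ∃ t, TT.DCov (ε.toMonoidHom.comp (QuotientGroup.mk' _)) t := by
  obtain ⟨t, t1, h7⟩ := (Nat.card_eq_two_iff' (1 : center A)).1 h2
  have t1' : (t : A) ≠ 1 := fun c => t1 (Subtype.ext c)
  have h3 : ∀ a ∈ center A, a = 1 ∨ a = t := fun a ha => or_iff_not_imp_left.2 fun d =>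
    congrArg Subtype.val (h7 ⟨a, ha⟩ fun c => d (congrArg Subtype.val c))
  have tt : (t : A) * t = 1 :=
    (h3 _ (mul_mem t.2 t.2)).resolve_right fun c => t1' (by simpa using c)
  exact ⟨t, hq.1, ε.surjective.comp (QuotientGroup.mk'_surjective _), t.2, t1', tt, fun a => by
    simpa using ⟨h3 a, by rintro (rfl | rfl); exacts [one_mem _, t.2]⟩⟩

namespace J2c

noncomputable abbrev X := gen CovJ2.ns CovJ2.X_ss0

theorem cover : ∃ ξ : X →* gen ModelJ2.ns ModelJ2.G_ss0, Function.Surjective ξ ∧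
    ξ.ker ≤ center _ ∧ (gen CovJ2.ns [[20]]).subgroupOf X ≤ ξ.ker ⊓ commutator X := by
  have := exists_cover CovJ2.ctx ModelJ2.ctx (ps := CovJ2.ps) CovJ2.chk
    (((CovJ2.X_ver0.nested CovJ2.X_l6 (by simp [CovJ2.X_C0, CovJ2.X_C1, CovJ2.X_C2,
      CovJ2.X_C3, CovJ2.X_C4, CovJ2.X_C5, CovJ2.X_C6])).trans CovJ2.X_eq.ge :))
    (CovJ2.X_eq ▸ CovJ2.hb :) (CovJ2.X_eq ▸ CovJ2.hb' :)
  have e1 : KSG.Pc.mapR Prod.fst CovJ2.ps = CovJ2.X_ss0 := rfl
  have e2 : KSG.Pc.mapR Prod.snd CovJ2.ps = ModelJ2.G_ss0 := rfl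
  rwa [e1, e2] at this

/-- the element of a word in the two generators -/
noncomputable def xw (v : List ℕ) : X := ⟨wp CovJ2.ns (subW CovJ2.X_ss0 v), subW_mem _ _ _⟩

noncomputable def aw : List ℕ := powW (commW [0, 3, 0] [3, 0, 3, 0, 2]) 3

theorem sq_aw : ((xw aw * xw aw : X) : Equiv.Perm ℕ) = wp CovJ2.ns [20] := by
  change wp _ _ * wp _ _ = _
  rw [← wp_append, ← appendR_eq]
  exact wp_eq_of_eqW CovJ2.ctx (by decide +kernel)

theorem model : ∃ ξ : X →* gen ModelJ2.ns ModelJ2.G_ss0, TT.DCov ξ (xw aw * xw aw) := by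
  obtain ⟨ξ, h1, h2, h3⟩ := cover
  have : Finite X := finite_gen CovJ2.ctx.ok _
  have := ModelJ2.isSimple
  refine ⟨ξ, dcov_of h1 h2 (h3 (mem_subgroupOf.2 (sq_aw ▸ wp_mem_gen _ List.mem_cons_self)))
    (fun c => ?_) ?_ (commutator_eq_top_of_simple (by rw [ModelJ2.G_card]; norm_num))⟩
  · have := wp_apply_of_mapsW CovJ2.ctx.ok (u := [20]) (p := 100) (q := 101) (by norm_num)
      (by decide +kernel)
    rw [← sq_aw, c] at this
    simp at this
  · have := ξ.ker.card_mul_index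
    rw [index_ker, MonoidHom.range_eq_top.2 h1, card_top] at this
    rw [ModelJ2.G_card, CovJ2.X_card] at this
    omega

/-- A double cover of `J₂` is the model. -/
theorem exists_equiv {A : Type*} [Group A] [Finite A] (hq : IsQuasisimple A)
    (he : Even (Nat.card (center A))) (hi : Spor.IsoJ2 (A ⧸ center A)) :
    Nat.card (center A) = 2 ∧
      ∃ ψ : X ≃* A, ψ (xw aw * xw aw) ≠ 1 ∧ ψ (xw aw * xw aw) ∈ center A := by
  obtain ⟨ε⟩ := hi
  have h2 := Nat.dvd_antisymm (card_center_dvd hq S2040.result ε) he.two_dvd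
  obtain ⟨ξ, D⟩ := model
  have : Finite X := finite_gen CovJ2.ctx.ok _
  obtain ⟨t, ht⟩ := dcov_center hq h2 (ε.trans ModelJ2.equiv)
  obtain ⟨ψ, hψ⟩ := TT.DCov.exists_equiv (MulEquiv.refl _) (e := 1)
    (MultJ2.geq ▸ MultJ2.bounds (2, 1) (by simp)) (n := 1) le_rfl (σ := fun _ => ξ) (fun _ => D)
    (fun i j c => absurd (Subsingleton.elim i j) c) ht
  exact ⟨h2, ψ, hψ ▸ ht.ne, hψ ▸ ht.cen⟩

end J2c

theorem exists_sq_J2 {A : Type*} [Group A] [Finite A] (hq : IsQuasisimple A)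
    (he : Even (Nat.card (center A))) (hi : Spor.IsoJ2 (A ⧸ center A)) :
    Nat.card (center A) = 2 ∧ ∃ a : A, a * a ≠ 1 ∧ a * a ∈ center A := by
  obtain ⟨h, ψ, h1, h2⟩ := J2c.exists_equiv hq he hi
  exact ⟨h, ψ (J2c.xw J2c.aw), map_mul ψ _ _ ▸ h1, map_mul ψ _ _ ▸ h2⟩

end Cfsg.Agent.EvM
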